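import Cfsg.Agent.H878.SCtx

/-!
# The adjoint representation of a projective representation (helper878)

`adj_bound`: a faithful projective representation of degree `d` in characteristic `≠ r` has `|V| - 1 ≤ d ^ 2`.
-/

set_option autoImplicit false
set_option linter.unusedSimpArgs false
set_option linter.unusedSectionVars false

namespace Cfsg.Agent.H878

open Matrix
open scoped MatrixGroups

variable {κ : Type*} [Fintype κ] [DecidableEq κ] {L : Type*} [Field L]

/-- Conjugation as a linear map. -/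
def adLin (g : GL κ L) : Matrix κ κ L →ₗ[L] Matrix κ κ L where
  toFun M := (g : Matrix κ κ L) * M * ((g⁻¹ : GL κ L) : Matrix κ κ L)
  map_add' a c := by rw [mul_add, add_mul]
  map_smul' c a := by rw [Matrix.mul_smul, Matrix.smul_mul, RingHom.id_apply]

theorem adLin_apply (g : GL κ L) (M : Matrix κ κ L) :
    adLin g M = (g : Matrix κ κ L) * M * ((g⁻¹ : GL κ L) : Matrix κ κ L) := rfl

/-- Conjugation as a homomorphism. -/
def adHom : GL κ L →* Module.End L (Matrix κ κ L) where
  toFun := adLin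
  map_one' := by
    ext1 M
    rw [adLin_apply, Units.val_one, inv_one, Units.val_one, one_mul, mul_one]
    rfl
  map_mul' g h := by
    ext1 M
    rw [Module.End.mul_apply, adLin_apply, adLin_apply, adLin_apply, _root_.mul_inv_rev, Units.val_mul, Units.val_mul]
    simp only [mul_assoc]

/-- Conjugation as matrices. -/
noncomputable def adMat : GL κ L →* GL (κ × κ) L :=
  (Units.map (LinearMap.toMatrixAlgEquiv (Matrix.stdBasis L κ κ) :
    Module.End L (Matrix κ κ L) →* Matrix (κ × κ) (κ × κ) L)).comp adHom.toHomUnits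

theorem adMat_eq_one {g : GL κ L} (h : adMat g = 1) : g ∈ Subgroup.center (GL κ L) := by
  have h1 : (LinearMap.toMatrixAlgEquiv (Matrix.stdBasis L κ κ)) (adLin g) = 1 := congrArg Units.val h
  have h2 : adLin g = 1 := by
    apply (LinearMap.toMatrixAlgEquiv (Matrix.stdBasis L κ κ)).injective
    rw [h1, map_one]
  rw [Subgroup.mem_center_iff]
  intro x
  have h3 : adLin g (x : Matrix κ κ L) = x := by rw [h2]; rfl
  rw [adLin_apply] at h3
  have h4 := congrArg (fun N => N * (g : Matrix κ κ L)) h3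
  rw [mul_assoc, ← Units.val_mul g⁻¹, inv_mul_cancel, Units.val_one, mul_one] at h4
  apply Units.ext
  rw [Units.val_mul, Units.val_mul]
  exact h4.symm

theorem adMat_of_center {g : GL κ L} (hg : ∀ M : Matrix κ κ L, (g : Matrix κ κ L) * M = M * g) : adMat g = 1 := by
  apply Units.ext
  change (LinearMap.toMatrixAlgEquiv (Matrix.stdBasis L κ κ)) (adLin g) = 1
  have : adLin g = 1 := by
    ext1 M
    rw [adLin_apply, hg, mul_assoc, ← Units.val_mul, mul_inv_cancel, Units.val_one, mul_one]
    rfl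
  rw [this, map_one]

variable {r : ℕ} [hr : Fact r.Prime] {V : Type*} [AddCommGroup V] [Module (ZMod r) V] [Finite V]
  {b : V →ₗ[ZMod r] V →ₗ[ZMod r] ZMod r} {hb : ∀ v, b v v = 0} {S : Type*} [Group S]
  {ε : Multiplicative V →* S}

/-- **Adjoint bound.** -/
theorem adj_bound [Nontrivial V] (h : SCtx b hb ε) (hrL : (r : L) ≠ 0)
    (θ : S →* GL κ L ⧸ Subgroup.center (GL κ L)) (hθ : Function.Injective θ) :
    Nat.card V - 1 ≤ Fintype.card κ ^ 2 := by
  classical
  have hker : Subgroup.center (GL κ L) ≤ (adMat (κ := κ) (L := L)).ker := by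
    intro z hz
    rw [MonoidHom.mem_ker]
    apply adMat_of_center
    obtain ⟨c, hc⟩ := Matrix.GeneralLinearGroup.mem_center_iff_val_mem_range_scalar.1 hz
    intro M
    rw [← hc]
    exact (Matrix.scalar_commute c (fun _ => Commute.all _ _) M).eq
  let τ : S →* GL (κ × κ) L := (QuotientGroup.lift _ (adMat (κ := κ) (L := L)) hker).comp θ
  have h1 := h.card_le_of_rep (m := κ × κ) hrL τ (by
    obtain ⟨v, hv⟩ := exists_ne (0 : V)
    refine ⟨v, fun h0 => hv ?_⟩
    obtain ⟨x, hx⟩ := QuotientGroup.mk_surjective (θ (ε (Multiplicative.ofAdd v)))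
    have h2 : adMat x = 1 := by
      have h3 : (QuotientGroup.lift _ (adMat (κ := κ) (L := L)) hker) (θ (ε (Multiplicative.ofAdd v))) = 1 := h0
      rw [← hx] at h3
      exact h3
    have h5 : θ (ε (Multiplicative.ofAdd v)) = θ 1 := by
      rw [← hx, map_one]
      exact (QuotientGroup.eq_one_iff _).2 (adMat_eq_one h2)
    have h6 : ε (Multiplicative.ofAdd v) = ε 1 := by rw [hθ h5, map_one]
    exact Multiplicative.ofAdd.injective (h.inj h6))
  rwa [Fintype.card_prod, ← sq] at h1

theorem le_of_sq_sub_one_le {n d : ℕ} (hn : 2 ≤ n) (h : n ^ 2 - 1 ≤ d ^ 2) : n ≤ d := by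
  by_contra hlt
  push Not at hlt
  obtain ⟨m, rfl⟩ : ∃ m, n = m + 1 := ⟨n - 1, by omega⟩
  have h1 : d ^ 2 ≤ m ^ 2 := Nat.pow_le_pow_left (by omega) 2
  have h2 : (m + 1) ^ 2 = m ^ 2 + 2 * m + 1 := by ring
  omega

/-- The natural dimension is at least `r ^ k`. -/
theorem natdim_le [Nontrivial V] (h : SCtx b hb ε) (hrL : (r : L) ≠ 0) {k : ℕ} (hk : Module.finrank (ZMod r) V = 2 * k)
    (θ : S →* GL κ L ⧸ Subgroup.center (GL κ L)) (hθ : Function.Injective θ) :
    r ^ k ≤ Fintype.card κ := by
  have h1 := adj_bound h hrL θ hθ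
  rw [Module.natCard_eq_pow_finrank (K := ZMod r), Nat.card_zmod, hk, mul_comm 2 k, pow_mul] at h1
  refine le_of_sq_sub_one_le ?_ h1
  have hk0 : k ≠ 0 := by
    rintro rfl
    have : 0 < Module.finrank (ZMod r) V := Module.finrank_pos
    omega
  exact hr.out.two_le.trans (Nat.le_self_pow hk0 r)

end Cfsg.Agent.H878
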