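import Cfsg.Agent.H878.Bridge

/-!
# From the coordinates of helper920 to the frames of this folder, `r = 2`, `|Z(R)| = 4` (helper878)
-/

set_option autoImplicit false

namespace Cfsg.Agent.H878

open Cfsg Cfsg.Geo Matrix Cfsg.Agent.ClassicalGeometry.SympBasic Cfsg.Agent.H920
open scoped MatrixGroups

variable {ι : Type} [Fintype ι] [DecidableEq ι] {F : Type*} [Field F] {R : Subgroup (GL ι F)} {r k : ℕ}

/-- **The bridge**, all types. -/
theorem exists_bridge_all [Finite F] [Nonempty ι] (hR : IsSymplecticTypeGroup r R)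
    (habs : ActsAbsolutelyIrreducibly (matrixSet R)) (ht : IsType r k R) (h5 : 5 ≤ r ^ k) {C : Coord R r k}
    {Y : Subgroup (GL ι F)} (hY : C.Core Y) :
    haveI : Fact r.Prime := ⟨hR.prime⟩
    ∃ (X : Vec r k → GL ι F) (h : Frame C.χ (sympBilin k (ZMod r)) X), Normed r X ∧ NT1 h ≤ Y := by
  have hfin : Finite (GL ι F) := inferInstance
  have hp : Fact r.Prime := ⟨hR.prime⟩
  have hfull : ∀ v, ∃ x : R, C.φ x = v ∧ x ^ r = 1 := by
    intro v
    obtain ⟨x, rfl⟩ := C.surj v
    obtain ⟨z, hz, h⟩ := full_of_type hR habs ht x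
    refine ⟨z * x, ?_, h⟩
    rw [C.map_mul, (C.ker_iff z).2 (mem_scalars_of_mem_center habs hz), zero_add]
  have hnorm : ∃ s : Vec r k → R, (∀ v, C.φ (s v) = v) ∧ Normed r (fun v => (s v : GL ι F)) := by
    rcases ht with ⟨hodd, -, -⟩ | ⟨rfl, hZ, -⟩
    · choose s hs hs' using hfull
      refine ⟨s, hs, Or.inl ⟨hodd, fun v => ?_⟩⟩
      rw [← Units.val_pow_eq_pow_val, ← Subgroup.coe_pow, hs', Subgroup.coe_one, Units.val_one]
    · obtain ⟨z, i, hi, hz, -, hzc⟩ := exists_i_of_type hR habs hZ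
      choose s hs hs' using hfull
      refine ⟨fun v => z * s v, fun v => ?_, Or.inr ⟨rfl, fun v => ?_⟩⟩
      · rw [C.map_mul, (C.ker_iff z).2 (mem_scalars_of_mem_center habs hzc), zero_add, hs]
      · have h1 : (((s v : R) : GL ι F) : Matrix ι ι F) * (((s v : R) : GL ι F) : Matrix ι ι F) = 1 := by
          have h2 := hs' v
          rw [pow_two] at h2
          rw [← Units.val_mul, ← Subgroup.coe_mul, h2, Subgroup.coe_one, Units.val_one]
        simp only [Subgroup.coe_mul, Units.val_mul, hz]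
        rw [Matrix.smul_mul, Matrix.one_mul, smul_mul_smul_comm, h1, ← pow_two, hi]
        simp
  obtain ⟨s, hs, hn⟩ := hnorm
  have h := C.frame habs hs
  exact ⟨_, h, hn, NT1_le_of_core C hY (hY.le_core hR habs ht h5) hs h⟩

end Cfsg.Agent.H878
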