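import Cfsg.Agent.H878.SData
import Cfsg.Agent.S0243
import Cfsg.Agent.S0280
import Cfsg.Agent.LieClassical.HermPerfect
import Cfsg.Agent.H905.SLBasic
import Cfsg.Agent.Cit.LongInst

/-!
# Orders: a perfect subgroup with the right simple quotient is everything (helper878)
-/

set_option autoImplicit false
set_option linter.unusedSimpArgs false
set_option linter.unusedSectionVars false

namespace Cfsg.Agent.H878

open Cfsg Cfsg.Geo Matrix
open scoped MatrixGroups

section general

variable {ι : Type} [Fintype ι] [DecidableEq ι] {F : Type*} [Field F]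

theorem card_map_eq (P : Subgroup (GL ι F)) :
    Nat.card (P.map (QuotientGroup.mk' (scalars ι F))) = Nat.card (SQ P) := by
  rw [← Subgroup.relIndex_ker, QuotientGroup.ker_mk']
  rfl

theorem card_sq_dvd {P G : Subgroup (GL ι F)} (h : P ≤ G) : Nat.card (SQ P) ∣ Nat.card (SQ G) := by
  rw [← card_map_eq, ← card_map_eq]
  exact Subgroup.card_dvd_of_le (Subgroup.map_mono h)

theorem eq_of_card [Finite F] {P G : Subgroup (GL ι F)} (h : P ≤ G) (hG : ⁅G, G⁆ = G) (hP : ⁅P, P⁆ = P)
    (hc : Nat.card (SQ G) ≤ Nat.card (SQ P)) : P = G := by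
  apply le_antisymm h
  have hfin : Finite (G.map (QuotientGroup.mk' (scalars ι F))) := inferInstance
  have h1 : P.map (QuotientGroup.mk' (scalars ι F)) = G.map (QuotientGroup.mk' (scalars ι F)) := by
    apply Subgroup.eq_of_le_of_card_ge (Subgroup.map_mono h)
    rw [card_map_eq, card_map_eq]
    exact hc
  have h2 : ∀ d ∈ G, ∃ y ∈ P, ∃ z ∈ scalars ι F, d = z * y := by
    intro d hd
    have h3 : QuotientGroup.mk' (scalars ι F) d ∈ P.map (QuotientGroup.mk' (scalars ι F)) := by
      rw [h1]; exact ⟨d, hd, rfl⟩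
    obtain ⟨y, hy, hyd⟩ := h3
    have h4 : y⁻¹ * d ∈ scalars ι F := by
      rw [← QuotientGroup.eq]
      exact hyd
    refine ⟨y, hy, y⁻¹ * d, h4, ?_⟩
    rw [H920.scalars_comm h4 y]
    group
  have h3 := commutator_scal_le h2
  rwa [hG, hP] at h3

theorem card_sq_of_hom {H : Type*} [Group H] (ρ : H →* GL ι F) (hρ : Function.Injective ρ)
    {G : Subgroup (GL ι F)} (hG : G = ρ.range) (hc : ∀ z, z ∈ Subgroup.center H ↔ ρ z ∈ scalars ι F) :
    Nat.card (SQ G) = Nat.card (H ⧸ Subgroup.center H) := by
  subst hG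
  let e : H ≃* ρ.range := MonoidHom.ofInjective hρ
  have h1 : (Subgroup.center H).map e.toMonoidHom = (scalars ι F).subgroupOf ρ.range := by
    ext x
    constructor
    · rintro ⟨z, hz, rfl⟩
      rw [Subgroup.mem_subgroupOf]
      exact (hc z).1 hz
    · intro hx
      refine ⟨e.symm x, ?_, e.apply_symm_apply x⟩
      rw [SetLike.mem_coe, hc]
      have : ρ (e.symm x) = (x : GL ι F) := congrArg Subtype.val (e.apply_symm_apply x)
      rw [this]
      exact hx
  exact (Nat.card_congr (QuotientGroup.congr _ _ e h1).toEquiv).symm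

end general

section linear

variable {F : Type*} [Field F]

theorem range_toGL (n : ℕ) :
    specialLinear (Fin n) F = (SpecialLinearGroup.toGL : SpecialLinearGroup (Fin n) F →* GL (Fin n) F).range := by
  ext g
  constructor
  · intro hg
    have h1 : (g : Matrix (Fin n) (Fin n) F).det = 1 := by
      have h2 : Matrix.GeneralLinearGroup.det g = 1 := hg
      exact congrArg Units.val h2
    exact ⟨⟨g, h1⟩, Units.ext rfl⟩
  · rintro ⟨x, rfl⟩
    rw [specialLinear, MonoidHom.mem_ker]
    apply Units.ext
    exact x.2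

theorem center_iff_scalars {n : ℕ} (g : GL (Fin n) F) :
    g ∈ Subgroup.center (GL (Fin n) F) ↔ g ∈ scalars (Fin n) F := by
  rw [Matrix.GeneralLinearGroup.mem_center_iff_val_mem_range_scalar]
  constructor
  · rintro ⟨c, hc⟩
    apply H920.mem_scalars_of_val (c := c)
    rw [← hc, Matrix.smul_one_eq_diagonal]
    rfl
  · intro h
    obtain ⟨c, hc⟩ := (mem_scalars_iff g).1 h
    refine ⟨c, ?_⟩
    rw [hc, Matrix.smul_one_eq_diagonal]
    rfl

theorem card_sq_sl (n : ℕ) :
    Nat.card (SQ (specialLinear (Fin n) F)) = Nat.card (ProjectiveSpecialLinearGroup (Fin n) F) := by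
  refine card_sq_of_hom (H := SpecialLinearGroup (Fin n) F) SpecialLinearGroup.toGL
    SpecialLinearGroup.toGL_injective (range_toGL n) ?_
  intro z
  rw [← center_iff_scalars]
  exact (Matrix.SpecialLinearGroup.toGL_mem_center_iff z).symm

end linear

section unitary

variable {F : Type*} [Field F] [Fintype F] {q : ℕ}

theorem range_su (n : ℕ) :
    GU n F q ⊓ specialLinear (Fin n) F =
      (SpecialLinearGroup.toGL.comp (SU n F q).subtype : SU n F q →* GL (Fin n) F).range := by
  ext g
  constructor
  · rintro ⟨hgu, hg⟩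
    have h1 : (g : Matrix (Fin n) (Fin n) F).det = 1 := by
      have h2 : Matrix.GeneralLinearGroup.det g = 1 := hg
      exact congrArg Units.val h2
    exact ⟨⟨⟨g, h1⟩, hgu⟩, Units.ext rfl⟩
  · rintro ⟨x, rfl⟩
    refine ⟨x.2, ?_⟩
    change _ ∈ specialLinear (Fin n) F
    rw [specialLinear, MonoidHom.mem_ker]
    apply Units.ext
    exact x.1.2

theorem card_sq_su (hF : Fintype.card F = q ^ 2) {n : ℕ} (hn : 3 ≤ n) :
    Nat.card (SQ (GU n F q ⊓ specialLinear (Fin n) F)) = Nat.card (PSU n F q) := by
  refine card_sq_of_hom (H := SU n F q) (SpecialLinearGroup.toGL.comp (SU n F q).subtype)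
    (SpecialLinearGroup.toGL_injective.comp (SU n F q).subtype_injective) (range_su n) ?_
  intro z
  constructor
  · intro hz
    obtain ⟨c, hc⟩ := Cit.LongInst.su_cen hF hn z hz
    exact H920.mem_scalars_of_val (c := c) hc
  · intro hz
    rw [← center_iff_scalars] at hz
    rw [Subgroup.mem_center_iff]
    intro x
    have h1 := Subgroup.mem_center_iff.1 hz ((SpecialLinearGroup.toGL.comp (SU n F q).subtype) x)
    have h2 : Function.Injective (SpecialLinearGroup.toGL.comp (SU n F q).subtype) :=
      SpecialLinearGroup.toGL_injective.comp (SU n F q).subtype_injective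
    apply h2
    rw [map_mul, map_mul, h1]

theorem su_perfect (hF : Fintype.card F = q ^ 2) {n : ℕ} (hn : 4 ≤ n) :
    ⁅GU n F q ⊓ specialLinear (Fin n) F, GU n F q ⊓ specialLinear (Fin n) F⁆ = GU n F q ⊓ specialLinear (Fin n) F := by
  rw [range_su, MonoidHom.range_eq_map, ← Subgroup.map_commutator, ← commutator_def,
    LieClassical.HermPerfect.commutator_SU_eq_top hF (by omega) (by omega)]

end unitary

end Cfsg.Agent.H878
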