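import Cfsg.Agent.H878.ZStep
import Cfsg.Agent.H878.SCtx

/-!
# The copy of the symplectic space in the simple quotient of the core (helper878)
-/

set_option autoImplicit false
set_option linter.unusedSimpArgs false
set_option linter.unusedSectionVars false

namespace Cfsg.Agent.H878

open Cfsg Cfsg.Geo Matrix
open scoped MatrixGroups

variable {ι : Type} [Fintype ι] [DecidableEq ι] {F : Type*} [Field F]
  {r : ℕ} [hr : Fact r.Prime] {V : Type*} [AddCommGroup V] [Module (ZMod r) V] [Finite V]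
  {ψ : AddChar (ZMod r) F} {b : V →ₗ[ZMod r] V →ₗ[ZMod r] ZMod r} {X : V → GL ι F}

section

variable [Nonempty ι] (h : Frame ψ b X) (hn : Normed r X) {P : Subgroup (GL ι F)} (hP : NT1 h ≤ P)

/-- The chosen lift of `v` to `NT1`. -/
noncomputable def lft (v : V) : GL ι F := (X_mem_NT1 h hn v).choose

theorem lft_mem (v : V) : lft h hn v ∈ NT1 h := (X_mem_NT1 h hn v).choose_spec.1

theorem lft_spec (v : V) : ∃ c : F, c ≠ 0 ∧ (lft h hn v : Matrix ι ι F) = c • (X v : Matrix ι ι F) :=
  (X_mem_NT1 h hn v).choose_spec.2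

theorem mk_eq_of_scal {x y : P} {c : F} (hc : ((x : GL ι F) : Matrix ι ι F) = c • ((y : GL ι F) : Matrix ι ι F)) :
    (x : SQ P) = (y : SQ P) := by
  rw [eq_comm, QuotientGroup.eq, Subgroup.mem_subgroupOf]
  change (y : GL ι F)⁻¹ * (x : GL ι F) ∈ scalars ι F
  apply H920.mem_scalars_of_val (c := c)
  rw [Units.val_mul, hc, Matrix.mul_smul, ← Units.val_mul, inv_mul_cancel, Units.val_one]

/-- The homomorphism from `V` to the simple quotient. -/
noncomputable def eps : Multiplicative V →* SQ P where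
  toFun v := ((⟨lft h hn v.toAdd, hP (lft_mem h hn _)⟩ : P) : SQ P)
  map_one' := by
    rw [← QuotientGroup.mk_one]
    obtain ⟨c, hc0, hc⟩ := lft_spec h hn (0 : V)
    obtain ⟨d, hd0, hd⟩ := h.X_zero
    apply mk_eq_of_scal (c := c * d)
    change ((lft h hn (0 : V) : GL ι F) : Matrix ι ι F) = (c * d) • ((1 : GL ι F) : Matrix ι ι F)
    rw [hc, hd, smul_smul, Units.val_one]
  map_mul' v w := by
    rw [← QuotientGroup.mk_mul]
    obtain ⟨c, hc0, hc⟩ := lft_spec h hn (v * w).toAdd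
    obtain ⟨d, hd0, hd⟩ := lft_spec h hn v.toAdd
    obtain ⟨e, he0, he⟩ := lft_spec h hn w.toAdd
    obtain ⟨f, hf0, hf⟩ := h.mul_ne v.toAdd w.toAdd
    apply mk_eq_of_scal (c := c * (d * (e * f))⁻¹)
    change ((lft h hn (v * w).toAdd : GL ι F) : Matrix ι ι F) =
      (c * (d * (e * f))⁻¹) • (((lft h hn v.toAdd) * (lft h hn w.toAdd) : GL ι F) : Matrix ι ι F)
    rw [Units.val_mul, hc, hd, he, Matrix.smul_mul, Matrix.mul_smul, hf, smul_smul, smul_smul, smul_smul, toAdd_mul]
    congr 1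
    have : d * (e * f) ≠ 0 := mul_ne_zero hd0 (mul_ne_zero he0 hf0)
    field_simp

theorem eps_apply (v : Multiplicative V) :
    eps h hn hP v = ((⟨lft h hn v.toAdd, hP (lft_mem h hn _)⟩ : P) : SQ P) := rfl

/-- **The context for the simple quotient.** -/
theorem sctx (hperf : commutator (TG b h.alt) = ⊤) : SCtx b h.alt (eps h hn hP) where
  nondeg := h.nondeg
  inj := by
    rw [injective_iff_map_eq_one]
    intro v hv
    rw [eps_apply, QuotientGroup.eq_one_iff, Subgroup.mem_subgroupOf] at hv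
    obtain ⟨d, hd⟩ := (mem_scalars_iff _).1 hv
    change (lft h hn v.toAdd : Matrix ι ι F) = _ at hd
    obtain ⟨c, hc0, hc⟩ := lft_spec h hn v.toAdd
    have h1 : (X v.toAdd : Matrix ι ι F) = (c⁻¹ * d) • 1 := by
      rw [hc] at hd
      rw [← smul_smul, ← hd, smul_smul, inv_mul_cancel₀ hc0, one_smul]
    have h2 := h.X_scalar h1
    exact Multiplicative.toAdd.injective h2
  act := by
    intro γ hγ
    obtain ⟨g, hg, hgγ⟩ := exists_NT1_acts h hn hperf hγ
    refine ⟨((⟨g, hP hg⟩ : P) : SQ P), fun v => ?_⟩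
    rw [eps_apply, eps_apply, ← QuotientGroup.mk_mul, ← QuotientGroup.mk_inv, ← QuotientGroup.mk_mul]
    obtain ⟨c, hc0, hc⟩ := lft_spec h hn v
    obtain ⟨d, hd0, hd⟩ := lft_spec h hn (γ v)
    obtain ⟨e, he0, he⟩ := acts_iff.1 hgγ v
    apply mk_eq_of_scal (c := c * (e * d⁻¹))
    change ((g * lft h hn v * g⁻¹ : GL ι F) : Matrix ι ι F) = (c * (e * d⁻¹)) • ((lft h hn (γ v) : GL ι F) : Matrix ι ι F)
    rw [Units.val_mul, Units.val_mul, hc, hd, Matrix.mul_smul, Matrix.smul_mul, he, smul_smul, smul_smul]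
    congr 1
    field_simp

include h hn hP in
/-- The kernel of the projection of the core to its simple quotient contains an element of order `r`. -/
theorem exists_ker_order [Nontrivial V] :
    ∃ x : P, x ∈ (scalars ι F).subgroupOf P ∧ orderOf x = r := by
  obtain ⟨g, hg, hgv⟩ := exists_psi_mem h hn
  refine ⟨⟨g, hP hg⟩, ?_, ?_⟩
  · rw [Subgroup.mem_subgroupOf]
    exact H920.mem_scalars_of_val hgv
  · rw [← orderOf_psi h hgv, ← Subgroup.orderOf_coe]

end

/-- The scalars of determinant 1 in dimension `r ^ k` form an `r`-group. -/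
theorem ker_isPGroup {k : ℕ} (hcard : Fintype.card ι = r ^ k) {P : Subgroup (GL ι F)} (hPS : P ≤ specialLinear ι F) :
    IsPGroup r ((scalars ι F).subgroupOf P) := by
  rintro ⟨⟨x, hxP⟩, hx⟩
  refine ⟨k, ?_⟩
  apply Subtype.ext
  apply Subtype.ext
  change x ^ (r ^ k) = 1
  rw [Subgroup.mem_subgroupOf] at hx
  obtain ⟨c, hc⟩ := (mem_scalars_iff _).1 hx
  change (x : Matrix ι ι F) = _ at hc
  have h1 := hPS hxP
  rw [specialLinear, MonoidHom.mem_ker] at h1
  have h2 := congrArg Units.val h1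
  rw [Matrix.GeneralLinearGroup.val_det_apply, hc, Matrix.det_smul, Matrix.det_one, mul_one, hcard,
    Units.val_one] at h2
  apply Units.ext
  rw [Units.val_pow_eq_pow_val, hc, smul_pow, one_pow, h2, one_smul, Units.val_one]

/-- **Lifting of `s`-subgroups of the simple quotient, `s ≠ r`.** -/
theorem lift_sub [Finite F] {k : ℕ} (hcard : Fintype.card ι = r ^ k) {P : Subgroup (GL ι F)}
    (hPS : P ≤ specialLinear ι F) {s : ℕ} (hs : s.Prime) (hsr : s ≠ r) (Q : Subgroup (SQ P)) (hQ : IsPGroup s Q) :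
    ∃ τ : Q →* GL ι F, Function.Injective τ := by
  classical
  have hsF : Fact s.Prime := ⟨hs⟩
  set π : P →* SQ P := QuotientGroup.mk' ((scalars ι F).subgroupOf P) with hπ
  -- the preimage and a Sylow subgroup
  let f : (Q.comap π) →* Q := (π.comp (Q.comap π).subtype).codRestrict Q (fun x => x.2)
  have hf : Function.Surjective f := by
    rintro ⟨q, hq⟩
    obtain ⟨x, rfl⟩ := QuotientGroup.mk'_surjective ((scalars ι F).subgroupOf P) q
    exact ⟨⟨x, hq⟩, rfl⟩
  obtain ⟨T⟩ : Nonempty (Sylow s (Q.comap π)) := inferInstance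
  -- `T` maps onto `Q`
  have hker : IsPGroup r f.ker := by
    rintro ⟨⟨x, hx⟩, hxf⟩
    have h1 : x ∈ (scalars ι F).subgroupOf P := by
      have h2 : π x = 1 := congrArg Subtype.val hxf
      rwa [hπ, QuotientGroup.mk'_apply, QuotientGroup.eq_one_iff] at h2
    obtain ⟨j, hj⟩ := ker_isPGroup (r := r) hcard hPS ⟨x, h1⟩
    refine ⟨j, ?_⟩
    apply Subtype.ext
    apply Subtype.ext
    have h3 : x ^ (r ^ j) = 1 := congrArg Subtype.val hj
    exact h3
  have hmapT : (T : Subgroup (Q.comap π)).map f = ⊤ := by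
    have hT' := T.mapSurjective hf
    have h1 : (T.mapSurjective hf : Subgroup Q) = ⊤ := by
      have h2 : IsPGroup s (⊤ : Subgroup Q) := hQ.to_subgroup ⊤
      exact ((T.mapSurjective hf).is_maximal' h2 le_top).symm
    rwa [Sylow.coe_mapSurjective] at h1
  have hinj : Function.Injective (f.comp (T : Subgroup (Q.comap π)).subtype) := by
    rw [injective_iff_map_eq_one]
    rintro ⟨x, hx⟩ hx1
    have h1 : x ∈ f.ker := hx1
    obtain ⟨i, hi⟩ := hker ⟨x, h1⟩
    obtain ⟨j, hj⟩ := T.isPGroup' ⟨x, hx⟩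
    have hi' : x ^ (r ^ i) = 1 := congrArg Subtype.val hi
    have hj' : x ^ (s ^ j) = 1 := congrArg Subtype.val hj
    have hco : Nat.Coprime (r ^ i) (s ^ j) :=
      Nat.Coprime.pow _ _ ((Nat.coprime_primes hr.out hs).2 (Ne.symm hsr))
    have h2 : orderOf x ∣ 1 := by
      rw [← Nat.Coprime.gcd_eq_one hco]
      exact Nat.dvd_gcd (orderOf_dvd_of_pow_eq_one hi') (orderOf_dvd_of_pow_eq_one hj')
    apply Subtype.ext
    exact orderOf_eq_one_iff.1 (Nat.dvd_one.1 h2)
  have hsurj : Function.Surjective (f.comp (T : Subgroup (Q.comap π)).subtype) := by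
    intro q
    have : q ∈ (T : Subgroup (Q.comap π)).map f := by rw [hmapT]; exact Subgroup.mem_top _
    obtain ⟨x, hx, hxq⟩ := this
    exact ⟨⟨x, hx⟩, hxq⟩
  let e := MulEquiv.ofBijective _ ⟨hinj, hsurj⟩
  refine ⟨(P.subtype.comp ((Q.comap π).subtype.comp (T : Subgroup (Q.comap π)).subtype)).comp
    e.symm.toMonoidHom, ?_⟩
  exact (P.subtype_injective.comp ((Subgroup.subtype_injective _).comp (Subgroup.subtype_injective _))).comp
    e.symm.injective

end Cfsg.Agent.H878
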